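import Cfsg.Agent.H594.PQ.TorInd
import Cfsg.Agent.H739.PQ.E7.Defs
import Cfsg.Agent.H317.PQ.Exc
import Cfsg.Agent.H734.Fx.GL
import Cfsg.Agent.H514.DP.Cyc
import Cfsg.Agent.H411.Six.EmbN
import Cfsg.Agent.H150.Fpf

/-!
# S4612, `E₇(q)`, orders 5 and 10, part T2 (helper594)

* `irr_of_dvd` : an element of order divisible by `p`, `ord_p q = 5`, of `GL₅(q)` is irreducible;
* `exists_f` : the generalised character `Ind (θ - 1)`, `θ` a character of order `p` of the Singer cycle.
-/

set_option autoImplicit false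
set_option linter.unusedSectionVars false

namespace Cfsg.Agent.H594.PQ

open Cfsg Matrix Polynomial Cfsg.Agent.H317.PQ Cfsg.Agent.H739.PQ.E7 Cfsg.Agent.H734.Fx
open scoped ComplexConjugate

section irr

variable {K : Type} [Field K] [Finite K]

/-- no invariant subspaces -/
theorem irr_of_dvd {p : ℕ} (hp : p.Prime) (ho : ord (Nat.card K) p = 5) {g : GL (Fin 5) K} (hg : p ∣ orderOf g)
    (S : Submodule K (Fin 5 → K)) (hS : Pres g S) : S = ⊥ ∨ S = ⊤ := by
  have hpF : Fact p.Prime := ⟨hp⟩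
  -- an element of order `p`
  obtain ⟨k, hk⟩ := hg
  have hk0 : 0 < k := by
    rcases Nat.eq_zero_or_pos k with h | h
    · rw [h, mul_zero] at hk
      exact absurd hk (orderOf_pos g).ne'
    · exact h
  have hy : orderOf (g ^ k) = p := by
    rw [orderOf_pow, hk, Nat.gcd_eq_right (Dvd.intro_left p rfl), Nat.mul_div_cancel _ hk0]
  set y := g ^ k with hyd
  have hyS : ∀ v ∈ S, (y : Matrix (Fin 5) (Fin 5) K) *ᵥ v ∈ S := by
    rw [hyd]
    clear_value y
    clear hk hk0 hy hyd
    induction k with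
    | zero =>
      intro v hv
      rw [pow_zero, Units.val_one, one_mulVec]
      exact hv
    | succ k ih =>
      intro v hv
      rw [pow_succ, Units.val_mul, ← mulVec_mulVec]
      exact ih _ (hS v hv)
  let s : (Fin 5 → K) →ₗ[K] (Fin 5 → K) := Matrix.toLin' (y : Matrix (Fin 5) (Fin 5) K)
  have hs : s ^ p = 1 := by
    show (Matrix.toLin' (y : Matrix (Fin 5) (Fin 5) K)) ^ p = 1
    rw [← Matrix.toLin'_pow, ← Units.val_pow_eq_pow_val, ← hy, pow_orderOf_eq_one, Units.val_one, Matrix.toLin'_one]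
    rfl
  have hs1 : s ≠ 1 := by
    intro h
    have h1 : (y : Matrix (Fin 5) (Fin 5) K) = 1 := by
      apply Matrix.toLin'.injective
      rw [Matrix.toLin'_one]
      exact h
    have h2 : y = 1 := Units.ext h1
    rw [h2, orderOf_one] at hy
    exact hp.one_lt.ne hy
  -- `p` is not the characteristic
  have hpK : (p : K) ≠ 0 := by
    intro h0
    have hc : CharP K p := by
      obtain ⟨c, hc⟩ := CharP.exists K
      have h1 := (CharP.cast_eq_zero_iff K c p).1 h0
      have hc1 : c ≠ 1 := CharP.char_ne_one K c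
      have h2 : c = p := ((Nat.dvd_prime hp).1 h1).resolve_left hc1
      exact h2 ▸ hc
    have := Fintype.ofFinite K
    obtain ⟨n, -, hn⟩ := FiniteField.card K p
    rw [← Nat.card_eq_fintype_card] at hn
    have h3 : ord (Nat.card K) p = 0 := by
      rw [hn]
      show orderOf ((p ^ (n : ℕ) : ℕ) : ZMod p) = 0
      have h4 : ((p ^ (n : ℕ) : ℕ) : ZMod p) = 0 := by
        push_cast
        rw [CharP.cast_eq_zero, zero_pow n.ne_zero]
      rw [h4, orderOf_eq_zero_iff']
      intro m hm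
      rw [zero_pow hm.ne']
      exact zero_ne_one
    rw [h3] at ho
    exact absurd ho (by norm_num)
  have hrange : LinearMap.range (s - 1) = ⊤ := by
    have h1 := H150.dvd_finrank_of_fpf_submodule hp s hs (LinearMap.range (s - 1)) (by
      rintro _ ⟨v, rfl⟩
      refine ⟨s v, ?_⟩
      simp only [LinearMap.sub_apply, Module.End.one_apply, map_sub]) (H150.fpf_range hpK s hs)
    have h2 : orderOf ((Nat.card K : ℕ) : ZMod p) = 5 := ho
    rw [h2] at h1
    have h3 : Module.finrank K (LinearMap.range (s - 1)) ≤ 5 := by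
      have := Submodule.finrank_le (LinearMap.range (s - 1))
      rwa [Module.finrank_fin_fun] at this
    have h4 : Module.finrank K (LinearMap.range (s - 1)) ≠ 0 := by
      intro h0
      rw [Submodule.finrank_eq_zero, LinearMap.range_eq_bot, sub_eq_zero] at h0
      exact hs1 h0
    apply Submodule.eq_top_of_finrank_eq
    rw [Module.finrank_fin_fun]
    obtain ⟨c, hc⟩ := h1
    rcases Nat.lt_or_ge c 2 with h5 | h5
    · interval_cases c
      · omega
      · omega
    · omega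
  have hf : ∀ v, s v = v → v = 0 := fun v hv => H150.fpf_range hpK s hs v (by rw [hrange]; trivial) hv
  have h5 := H150.dvd_finrank_of_fpf_submodule hp s hs S (by
    intro v hv
    show Matrix.toLin' (y : Matrix (Fin 5) (Fin 5) K) v ∈ S
    rw [Matrix.toLin'_apply]
    exact hyS v hv) (fun v _ hv => hf v hv)
  have h2 : orderOf ((Nat.card K : ℕ) : ZMod p) = 5 := ho
  rw [h2] at h5
  have h3 : Module.finrank K S ≤ 5 := by
    have := Submodule.finrank_le S
    rwa [Module.finrank_fin_fun] at this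
  by_cases h4 : Module.finrank K S = 0
  · left
    exact Submodule.finrank_eq_zero.1 h4
  · right
    apply Submodule.eq_top_of_finrank_eq
    rw [Module.finrank_fin_fun]
    obtain ⟨c, hc⟩ := h5
    rcases Nat.lt_or_ge c 2 with h5 | h5
    · interval_cases c
      · omega
      · omega
    · omega

end irr

/-! ### the transpose inverse -/

theorem tau_mul {K : Type*} [Field K] {n : ℕ} (g h : GL (Fin n) K) : tau (g * h) = tau g * tau h := by
  apply Units.ext
  show (((g * h)⁻¹ : GL (Fin n) K) : Matrix (Fin n) (Fin n) K)ᵀ = ((g⁻¹ : GL (Fin n) K) : Matrix (Fin n) (Fin n) K)ᵀ *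
    ((h⁻¹ : GL (Fin n) K) : Matrix (Fin n) (Fin n) K)ᵀ
  rw [_root_.mul_inv_rev, Units.val_mul, transpose_mul]

theorem tau_one {K : Type*} [Field K] {n : ℕ} : tau (1 : GL (Fin n) K) = 1 := by
  have h := tau_mul (1 : GL (Fin n) K) 1
  rw [one_mul] at h
  exact (mul_eq_left.1 h.symm)

theorem tau_inv {K : Type*} [Field K] {n : ℕ} (g : GL (Fin n) K) : tau g⁻¹ = (tau g)⁻¹ := by
  rw [eq_inv_iff_mul_eq_one, ← tau_mul, inv_mul_cancel, tau_one]

theorem normal_of_hasSL {K : Type*} [Field K] {n : ℕ} {H : Subgroup (GL (Fin n) K)} (hH : HasSL H) : H.Normal := by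
  refine ⟨fun h hh g => ?_⟩
  have h1 : g * h * g⁻¹ = (g * h * g⁻¹ * h⁻¹) * h := by group
  rw [h1]
  refine mul_mem (hH _ ?_) hh
  have h2 : GeneralLinearGroup.det (g * h * g⁻¹ * h⁻¹) = 1 := by
    rw [map_mul, map_mul, map_mul, map_inv, map_inv, mul_comm (GeneralLinearGroup.det g)]
    group
  exact congrArg Units.val h2

section field

variable {K L : Type} [Field K] [Fintype K] [Field L] [Finite L] [Algebra K L] (b : Module.Basis (Fin 5) K L)

theorem TT_injective : Function.Injective (TT b) := by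
  intro x y h
  apply Units.ext
  exact Algebra.leftMulMatrix_injective b (congrArg Units.val h)

include b in
theorem finrank_L : Module.finrank K L = 5 := by
  rw [Module.finrank_eq_card_basis b, Fintype.card_fin]

include b in
theorem adjoin_top {x : L} (hx : x ∉ Set.range (algebraMap K L)) : Algebra.adjoin K {x} = ⊤ := by
  have := Subalgebra.isSimpleOrder_of_finrank_prime K L (by rw [finrank_L b]; norm_num)
  rcases eq_bot_or_eq_top (Algebra.adjoin K {x}) with h | h
  · exfalso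
    have h1 : x ∈ Algebra.adjoin K {x} := Algebra.subset_adjoin rfl
    rw [h, Algebra.mem_bot] at h1
    exact hx h1
  · exact h

/-- conjugate elements are roots of the same polynomials -/
theorem aeval_of_conj {s t : Lˣ} {x : GL (Fin 5) K} (hc : x * TT b s * x⁻¹ = TT b t) (P : K[X])
    (hP : aeval (s : L) P = 0) : aeval (t : L) P = 0 := by
  have hx1 : ((x⁻¹ : GL (Fin 5) K) : Matrix (Fin 5) (Fin 5) K) * (x : Matrix (Fin 5) (Fin 5) K) = 1 := by
    rw [← Units.val_mul, inv_mul_cancel, Units.val_one]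
  have hx2 : (x : Matrix (Fin 5) (Fin 5) K) * ((x⁻¹ : GL (Fin 5) K) : Matrix (Fin 5) (Fin 5) K) = 1 := by
    rw [← Units.val_mul, mul_inv_cancel, Units.val_one]
  have hc' : (x : Matrix (Fin 5) (Fin 5) K) * Algebra.leftMulMatrix b (s : L) *
      ((x⁻¹ : GL (Fin 5) K) : Matrix (Fin 5) (Fin 5) K) = Algebra.leftMulMatrix b (t : L) := by
    have := congrArg Units.val hc
    rwa [Units.val_mul, Units.val_mul, coe_TT, coe_TT] at this
  have h1 : ∀ P : K[X], aeval (Algebra.leftMulMatrix b (t : L)) P = (x : Matrix (Fin 5) (Fin 5) K) *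
      aeval (Algebra.leftMulMatrix b (s : L)) P * ((x⁻¹ : GL (Fin 5) K) : Matrix (Fin 5) (Fin 5) K) := by
    intro P
    have h2 : ∀ n : ℕ, (Algebra.leftMulMatrix b (t : L)) ^ n = (x : Matrix (Fin 5) (Fin 5) K) *
        (Algebra.leftMulMatrix b (s : L)) ^ n * ((x⁻¹ : GL (Fin 5) K) : Matrix (Fin 5) (Fin 5) K) := by
      intro n
      induction n with
      | zero => rw [pow_zero, pow_zero, mul_one, hx2]
      | succ n ih =>
        rw [pow_succ, ih, ← hc', pow_succ]
        calc (x : Matrix (Fin 5) (Fin 5) K) * Algebra.leftMulMatrix b (s : L) ^ n *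
              ((x⁻¹ : GL (Fin 5) K) : Matrix (Fin 5) (Fin 5) K) * ((x : Matrix (Fin 5) (Fin 5) K) *
              Algebra.leftMulMatrix b (s : L) * ((x⁻¹ : GL (Fin 5) K) : Matrix (Fin 5) (Fin 5) K))
            = (x : Matrix (Fin 5) (Fin 5) K) * Algebra.leftMulMatrix b (s : L) ^ n *
              (((x⁻¹ : GL (Fin 5) K) : Matrix (Fin 5) (Fin 5) K) * (x : Matrix (Fin 5) (Fin 5) K)) *
              Algebra.leftMulMatrix b (s : L) * ((x⁻¹ : GL (Fin 5) K) : Matrix (Fin 5) (Fin 5) K) := by noncomm_ring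
          _ = _ := by rw [hx1]; noncomm_ring
    induction P using Polynomial.induction_on' with
    | add P Q hP hQ => rw [map_add, map_add, hP, hQ]; noncomm_ring
    | monomial n a =>
      rw [aeval_monomial, aeval_monomial, h2]
      rw [Algebra.algebraMap_eq_smul_one, smul_mul_assoc, one_mul, smul_mul_assoc, one_mul, Matrix.mul_smul,
        Matrix.smul_mul]
  have h3 : aeval (Algebra.leftMulMatrix b (t : L)) P = 0 := by
    rw [h1, aeval_algHom_apply, hP, map_zero]
    simp
  rw [aeval_algHom_apply] at h3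
  exact Algebra.leftMulMatrix_injective b (h3.trans (map_zero _).symm)

/-- conjugate elements of the Singer cycle -/
theorem exists_pow_of_conj {s t : Lˣ} {x : GL (Fin 5) K} (hc : x * TT b s * x⁻¹ = TT b t) :
    ∃ i : Fin 5, t ^ (Fintype.card K ^ (i : ℕ)) = s := by
  have hfin : Module.Finite K L := Module.Finite.of_basis b
  have hc' : x⁻¹ * TT b t * x⁻¹⁻¹ = TT b s := by
    rw [← hc]
    group
  have h1 : aeval (s : L) (minpoly K (t : L)) = 0 := aeval_of_conj b hc' _ (minpoly.aeval K (t : L))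
  obtain ⟨σ, hσ⟩ := minpoly.exists_algEquiv_of_root' (K := K) (L := L) (Algebra.IsAlgebraic.isAlgebraic (t : L)) h1
  obtain ⟨i, hi⟩ := (FiniteField.bijective_frobeniusAlgEquivOfAlgebraic_pow K L).2 σ
  refine ⟨⟨i, i.2.trans_eq (finrank_L b)⟩, ?_⟩
  apply Units.ext
  rw [Units.val_pow_eq_pow_val, ← hσ, ← hi]
  show (t : L) ^ (Fintype.card K ^ (i : ℕ)) = (FiniteField.frobeniusAlgEquivOfAlgebraic K L ^ (i : ℕ)) (t : L)
  rw [AlgEquiv.coe_pow, FiniteField.coe_frobeniusAlgEquivOfAlgebraic, pow_iterate]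

theorem exists_conj_pow (t : Lˣ) (i : ℕ) : ∃ x : GL (Fin 5) K, x * TT b (t ^ (Fintype.card K ^ i)) * x⁻¹ = TT b t := by
  induction i with
  | zero => exact ⟨1, by simp⟩
  | succ i ih =>
    obtain ⟨x, hx⟩ := ih
    refine ⟨x * (PH b (fr K L))⁻¹, ?_⟩
    have h1 := fr_conj b (t ^ (Fintype.card K ^ i))
    rw [← map_pow, ← pow_mul, ← pow_succ] at h1
    rw [← h1, ← hx]
    group

theorem mem_range_of_comm {t : Lˣ} (ht : (t : L) ∉ Set.range (algebraMap K L)) {x : GL (Fin 5) K}
    (hx : x * TT b t = TT b t * x) : x ∈ (TT b).range := by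
  obtain ⟨w, hw⟩ := H514.DP.exists_of_commute b (adjoin_top b ht) (M := (x : Matrix (Fin 5) (Fin 5) K)) (by
    have := congrArg Units.val hx
    rwa [Units.val_mul, Units.val_mul, coe_TT] at this)
  have hw0 : w ≠ 0 := by
    rintro rfl
    rw [map_zero] at hw
    have h1 : (x : Matrix (Fin 5) (Fin 5) K) * ((x⁻¹ : GL (Fin 5) K) : Matrix (Fin 5) (Fin 5) K) = 1 := by
      rw [← Units.val_mul, mul_inv_cancel, Units.val_one]
    rw [hw, zero_mul] at h1
    exact zero_ne_one h1
  exact ⟨Units.mk0 w hw0, Units.ext hw.symm⟩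

/-- the transpose inverse on the Singer cycle -/
theorem exists_tau_conj (t : Lˣ) : ∃ y : GL (Fin 5) K, tau (TT b t) = y * TT b t⁻¹ * y⁻¹ := by
  have hfin : Module.Finite K L := Module.Finite.of_basis b
  have hdet := H411.Six.Emb.det_T b
  let y : GL (Fin 5) K := Matrix.GeneralLinearGroup.mk'' (H411.Six.Emb.T b) hdet
  refine ⟨y, ?_⟩
  rw [eq_mul_inv_iff_mul_eq]
  apply Units.ext
  have h1 := H411.Six.Emb.T_mul b ((t⁻¹ : Lˣ) : L)
  show ((((TT b t)⁻¹ : GL (Fin 5) K) : Matrix (Fin 5) (Fin 5) K))ᵀ * H411.Six.Emb.T b =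
    H411.Six.Emb.T b * Algebra.leftMulMatrix b ((t⁻¹ : Lˣ) : L)
  rw [h1, ← map_inv]
  rfl

/-! ### the character -/

/-- a character of order `p` -/
theorem exists_theta {Λ : Type*} [CommGroup Λ] [Finite Λ] [IsCyclic Λ] {p : ℕ} (hp : p.Prime) (hd : p ∣ Nat.card Λ) :
    ∃ θ : Λ →* ℂˣ, (∀ s, θ s ^ p = 1) ∧ ∃ s, θ s ≠ 1 := by
  obtain ⟨k, hk⟩ := hd
  have hk0 : 0 < k := by
    rcases Nat.eq_zero_or_pos k with h | h
    · rw [h, mul_zero] at hk
      exact absurd hk Nat.card_pos.ne'
    · exact h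
  obtain ⟨g, hg⟩ := IsCyclic.exists_generator (α := Λ)
  have ho : orderOf g = p * k := by rw [← hk]; exact orderOf_eq_card_of_forall_mem_zpowers hg
  have ha : g ^ k ≠ 1 := by
    intro h
    have h1 := Nat.le_of_dvd hk0 (orderOf_dvd_of_pow_eq_one h)
    rw [ho] at h1
    have := hp.two_le
    nlinarith
  obtain ⟨φ, hφ⟩ := CommGroup.exists_apply_ne_one_of_hasEnoughRootsOfUnity Λ ℂ ha
  refine ⟨φ ^ k, fun s => ?_, g, ?_⟩
  · rw [MonoidHom.pow_apply, ← pow_mul, mul_comm k p, ← hk, ← map_pow, pow_card_eq_one', map_one]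
  · rw [MonoidHom.pow_apply, ← map_pow]
    exact hφ

theorem conj_unit {z : ℂˣ} {p : ℕ} (hp : p ≠ 0) (hz : z ^ p = 1) : conj (z : ℂ) = ((z⁻¹ : ℂˣ) : ℂ) := by
  have h1 : ‖(z : ℂ)‖ = 1 := Complex.norm_eq_one_of_pow_eq_one (by rw [← Units.val_pow_eq_pow_val, hz, Units.val_one]) hp
  rw [Units.val_inv_eq_inv_val, Complex.inv_eq_conj h1]

variable {p : ℕ} (hp : p.Prime) (ho : ord (Fintype.card K) p = 5) (θ : Lˣ →* ℂˣ) (hθ : ∀ s, θ s ^ p = 1)

include hp hθ in
theorem order_theta {s : Lˣ} (hs : θ s ≠ 1) : orderOf (θ s) = p := by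
  rcases (Nat.dvd_prime hp).1 (orderOf_dvd_of_pow_eq_one (hθ s)) with h | h
  · exact absurd (orderOf_eq_one_iff.1 h) hs
  · exact h

include hp ho in
theorem not_dvd_sub {m : ℕ} (h1 : 0 < m) (h5 : m < 5) : ¬ p ∣ Fintype.card K ^ m - 1 := by
  rw [← ord_dvd Fintype.card_pos, ho]
  intro h
  have := Nat.le_of_dvd h1 h
  omega

include hp ho hθ in
/-- elements outside the kernel are regular -/
theorem not_mem_base {s : Lˣ} (hs : θ s ≠ 1) : (s : L) ∉ Set.range (algebraMap K L) := by
  rintro ⟨c, hc⟩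
  have hc0 : c ≠ 0 := by
    rintro rfl
    rw [map_zero] at hc
    exact s.ne_zero hc.symm
  have h1 : s ^ (Fintype.card K - 1) = 1 := by
    apply Units.ext
    rw [Units.val_pow_eq_pow_val, ← hc, ← map_pow, FiniteField.pow_card_sub_one_eq_one c hc0, map_one, Units.val_one]
  have h2 : p ∣ Fintype.card K - 1 := by
    rw [← order_theta hp θ hθ hs]
    apply orderOf_dvd_of_pow_eq_one
    rw [← map_pow, h1, map_one]
  exact not_dvd_sub (p := p) (K := K) hp ho (m := 1) (by norm_num) (by norm_num) (by rwa [pow_one])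

include hp ho in
/-- the powers `q ^ i`, `i < 5`, are distinct modulo `p` -/
theorem pow_inj {z : ℂˣ} (hz : orderOf z = p) {i j : Fin 5}
    (h : z ^ (Fintype.card K ^ (i : ℕ)) = z ^ (Fintype.card K ^ (j : ℕ))) : i = j := by
  have hpF : Fact p.Prime := ⟨hp⟩
  have h1 : Fintype.card K ^ (i : ℕ) ≡ Fintype.card K ^ (j : ℕ) [MOD p] := by
    rw [← hz]
    exact pow_eq_pow_iff_modEq.1 h
  rw [← ZMod.natCast_eq_natCast_iff] at h1
  push_cast at h1
  have h2 : orderOf ((Fintype.card K : ℕ) : ZMod p) = 5 := ho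
  apply Fin.ext
  exact pow_injOn_Iio_orderOf (by rw [Set.mem_Iio, h2]; exact i.2) (by rw [Set.mem_Iio, h2]; exact j.2) h1

include hp ho hθ in
/-- **The value of the induced function on the Singer cycle.** -/
theorem value [Fintype L] [Fintype (GL (Fin 5) K)] [Fintype Lˣ] {s : Lˣ} (hs : θ s ≠ 1) : fT (TT_injective b) θ (TT b s) =
    ∑ i : Fin 5, (((θ s ^ (Fintype.card K ^ (i : ℕ)) : ℂˣ) : ℂ) - 1) := by
  have hb := not_mem_base hp ho θ hθ hs
  have h1 := fT_M (TT_injective b) θ (t := s) (fun i : Fin 5 => s ^ (Fintype.card K ^ (i : ℕ))) (by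
    intro i j hij
    apply pow_inj hp ho (order_theta hp θ hθ hs)
    have h2 : s ^ (Fintype.card K ^ (i : ℕ)) = s ^ (Fintype.card K ^ (j : ℕ)) := hij
    rw [← map_pow, ← map_pow, h2]) (fun i => exists_conj_pow b s i) (fun s' x h => exists_pow_of_conj b h)
    (fun x hx => mem_range_of_comm b hb hx)
  rw [h1]
  refine Finset.sum_congr rfl fun i _ => ?_
  rw [map_pow]

include hp ho hθ in
open Classical in
/-- the sum over a subgroup -/
theorem sum_double [Fintype Lˣ] (A : Subgroup Lˣ) {s0 : Lˣ} (h0 : s0 ∈ A) (h1 : θ s0 ≠ 1) (ν : Lˣ →* ℂˣ)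
    (hν1 : ν s0 ≠ 1) {N : ℕ}
    (hN : (Finset.univ.filter fun i : Fin 5 => θ s0 * ν s0 ^ (Fintype.card K ^ (i : ℕ)) = 1).card = N)
    (htriv : ∀ i : Fin 5, θ s0 * ν s0 ^ (Fintype.card K ^ (i : ℕ)) = 1 →
      ∀ s, θ s * ν s ^ (Fintype.card K ^ (i : ℕ)) = 1) (hνp : ∀ s, ν s ^ p = 1) :
    ∑ s ∈ Finset.univ.filter (fun s => s ∈ A), (((θ s : ℂˣ) : ℂ) - 1) *
      (∑ i : Fin 5, (((ν s ^ (Fintype.card K ^ (i : ℕ)) : ℂˣ) : ℂ) - 1)) =
      ((5 + N : ℕ) : ℂ) * (Finset.univ.filter (fun s => s ∈ A)).card := by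
  have hq : ∀ i : Fin 5, ν s0 ^ (Fintype.card K ^ (i : ℕ)) ≠ 1 := by
    intro i h
    have h2 : orderOf (ν s0) = p := by
      rcases (Nat.dvd_prime hp).1 (orderOf_dvd_of_pow_eq_one (hνp s0)) with h | h
      · exact absurd (orderOf_eq_one_iff.1 h) hν1
      · exact h
    have h3 : p ∣ Fintype.card K ^ (i : ℕ) := by
      rw [← h2]
      exact orderOf_dvd_of_pow_eq_one h
    have h4 : p ∣ Fintype.card K := hp.dvd_of_dvd_pow h3
    have h5 : ord (Fintype.card K) p = 0 := by
      have hpF : Fact p.Prime := ⟨hp⟩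
      show orderOf ((Fintype.card K : ℕ) : ZMod p) = 0
      rw [(ZMod.natCast_eq_zero_iff _ _).2 h4, orderOf_eq_zero_iff']
      intro m hm
      rw [zero_pow hm.ne']
      exact zero_ne_one
    rw [h5] at ho
    exact absurd ho (by norm_num)
  set F := Finset.univ.filter (fun s => s ∈ A) with hF
  have e1 : ∑ s ∈ F, ((θ s : ℂˣ) : ℂ) = 0 := sum_char A θ ⟨s0, h0, h1⟩
  have e2 : ∀ i : Fin 5, ∑ s ∈ F, ((ν s ^ (Fintype.card K ^ (i : ℕ)) : ℂˣ) : ℂ) = 0 :=
    fun i => sum_char A (ν ^ (Fintype.card K ^ (i : ℕ))) ⟨s0, h0, hq i⟩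
  have e3 : ∀ i : Fin 5, ∑ s ∈ F, ((θ s * ν s ^ (Fintype.card K ^ (i : ℕ)) : ℂˣ) : ℂ) =
      if θ s0 * ν s0 ^ (Fintype.card K ^ (i : ℕ)) = 1 then (F.card : ℂ) else 0 := by
    intro i
    split_ifs with h
    · rw [Finset.sum_congr rfl fun s _ => by rw [htriv i h s, Units.val_one], Finset.sum_const, nsmul_eq_mul, mul_one]
    · exact sum_char A (θ * ν ^ (Fintype.card K ^ (i : ℕ))) ⟨s0, h0, h⟩
  have e4 : ∀ s : Lˣ, (((θ s : ℂˣ) : ℂ) - 1) * (∑ i : Fin 5, (((ν s ^ (Fintype.card K ^ (i : ℕ)) : ℂˣ) : ℂ) - 1)) =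
      ∑ i : Fin 5, (((θ s * ν s ^ (Fintype.card K ^ (i : ℕ)) : ℂˣ) : ℂ) - ((θ s : ℂˣ) : ℂ) -
        ((ν s ^ (Fintype.card K ^ (i : ℕ)) : ℂˣ) : ℂ) + 1) := by
    intro s
    rw [Finset.mul_sum]
    refine Finset.sum_congr rfl fun i _ => ?_
    rw [Units.val_mul]
    ring
  rw [Finset.sum_congr rfl fun s _ => e4 s, Finset.sum_comm]
  have e5 : ∀ i : Fin 5, ∑ s ∈ F, (((θ s * ν s ^ (Fintype.card K ^ (i : ℕ)) : ℂˣ) : ℂ) - ((θ s : ℂˣ) : ℂ) -
        ((ν s ^ (Fintype.card K ^ (i : ℕ)) : ℂˣ) : ℂ) + 1) =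
      (if θ s0 * ν s0 ^ (Fintype.card K ^ (i : ℕ)) = 1 then (F.card : ℂ) else 0) + F.card := by
    intro i
    rw [Finset.sum_add_distrib, Finset.sum_sub_distrib, Finset.sum_sub_distrib, e1, e2, e3, Finset.sum_const,
      nsmul_eq_mul, mul_one]
    ring
  rw [Finset.sum_congr rfl fun i _ => e5 i, Finset.sum_add_distrib, ← Finset.sum_filter, Finset.sum_const, hN,
    Finset.sum_const, Finset.card_univ, Fintype.card_fin, nsmul_eq_mul, nsmul_eq_mul]
  push_cast
  ring

theorem zmod_two (a : ZMod 2) : a = 0 ∨ a = 1 := by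
  revert a
  decide

include hp ho in
theorem mul_ne_one {z : ℂˣ} (hz : orderOf z = p) (i : Fin 5) : z * z ^ (Fintype.card K ^ (i : ℕ)) ≠ 1 := by
  intro h
  have hpF : Fact p.Prime := ⟨hp⟩
  rw [← pow_succ'] at h
  have h1 : p ∣ Fintype.card K ^ (i : ℕ) + 1 := by
    rw [← hz]
    exact orderOf_dvd_of_pow_eq_one h
  have h2 : orderOf ((Fintype.card K : ℕ) : ZMod p) = 5 := ho
  have h3 : ((Fintype.card K : ℕ) : ZMod p) ^ (i : ℕ) + 1 = 0 := by
    have := (ZMod.natCast_eq_zero_iff _ _).2 h1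
    push_cast at this
    exact this
  have h4 : ((Fintype.card K : ℕ) : ZMod p) ^ (2 * (i : ℕ)) = 1 := by
    have h5 : ((Fintype.card K : ℕ) : ZMod p) ^ (i : ℕ) = -1 := eq_neg_of_add_eq_zero_left h3
    rw [mul_comm, pow_mul, h5]
    norm_num
  have h5 := orderOf_dvd_of_pow_eq_one h4
  rw [h2] at h5
  have h6 : (i : ℕ) = 0 := by
    have := i.2
    omega
  rw [h6, pow_zero] at h3
  have h7 : p ∣ 2 := by
    rw [← ZMod.natCast_eq_zero_iff]
    rw [← h3]
    norm_num
  have h8 : p = 2 := (Nat.prime_dvd_prime_iff_eq hp Nat.prime_two).1 h7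
  subst h8
  rcases zmod_two ((Fintype.card K : ℕ) : ZMod 2) with h10 | h10
  · rw [h10] at h2
    have : orderOf (0 : ZMod 2) = 0 := by
      rw [orderOf_eq_zero_iff']
      intro m hm
      rw [zero_pow hm.ne']
      exact zero_ne_one
    rw [this] at h2
    exact absurd h2 (by norm_num)
  · rw [h10, orderOf_one] at h2
    exact absurd h2 (by norm_num)

end field

/-- **Part T2.** -/
theorem exists_f (K : Type) [Field K] [Finite K] {p : ℕ} (hp : p.Prime) (ho : ord (Nat.card K) p = 5) :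
    ∃ f : GL (Fin 5) K → ℂ, IsGeneralizedCharacter (GL (Fin 5) K) f ∧
    (∀ g, f g ≠ 0 → p ∣ orderOf g) ∧
    (∀ H : Subgroup (GL (Fin 5) K), HasSL H → ∑ᶠ h : H, f h = -Nat.card H) ∧
    (∀ H : Subgroup (GL (Fin 5) K), HasSL H → ∑ᶠ h : H, f h * conj (f h) = 6 * Nat.card H) ∧
    (∀ H : Subgroup (GL (Fin 5) K), HasSL H → ∑ᶠ h : H, f h * conj (f (tau h)) = 5 * Nat.card H) := by
  classical
  have hKF := Fintype.ofFinite K
  rw [Nat.card_eq_fintype_card] at ho
  obtain ⟨L, iL, iL', iA, hcard, hfr, ⟨b⟩⟩ := exists_ext K (e := 5) (by norm_num)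
  have hLu := Fintype.ofFinite Lˣ
  have hL := Fintype.ofFinite L
  have hG := Fintype.ofFinite (GL (Fin 5) K)
  have hp0 : p ≠ 0 := hp.ne_zero
  have hd : p ∣ Nat.card Lˣ := by
    rw [Nat.card_units, hcard, ← ord_dvd Fintype.card_pos, ho]
  obtain ⟨θ, hθ, s1, hs1⟩ := exists_theta hp hd
  have hcl := isClass_fT (TT_injective b) θ
  -- an element of determinant one outside the kernel
  have hexA : ∀ H : Subgroup (GL (Fin 5) K), HasSL H → ∃ s0 ∈ H.comap (TT b), θ s0 ≠ 1 := by
    intro H hH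
    refine ⟨s1 ^ (Fintype.card K - 1), ?_, ?_⟩
    · rw [Subgroup.mem_comap]
      apply hH
      rw [TT_det, Units.val_pow_eq_pow_val, map_pow]
      apply FiniteField.pow_card_sub_one_eq_one
      rw [Algebra.norm_ne_zero_iff]
      exact s1.ne_zero
    · rw [map_pow]
      intro h
      have h1 : p ∣ Fintype.card K - 1 := by
        rw [← order_theta hp θ hθ hs1]
        exact orderOf_dvd_of_pow_eq_one h
      exact not_dvd_sub (p := p) (K := K) hp ho (m := 1) (by norm_num) (by norm_num) (by rwa [pow_one])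
  have hcov : ∀ H : Subgroup (GL (Fin 5) K), HasSL H → ∀ g : GL (Fin 5) K, ∃ s : Lˣ, (TT b s)⁻¹ * g ∈ H := by
    intro H hH g
    obtain ⟨s, hs⟩ := FiniteField.unitsMap_norm_surjective K L (GeneralLinearGroup.det g)
    have h1 : GeneralLinearGroup.det (TT b s) = GeneralLinearGroup.det g := by
      rw [← hs]
      refine Units.ext ?_
      rw [GeneralLinearGroup.val_det_apply, Units.coe_map]
      exact TT_det b s
    have h2 : GeneralLinearGroup.det ((TT b s)⁻¹ * g) = 1 := by
      rw [map_mul, map_inv, h1, inv_mul_cancel]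
    have h3 := congrArg Units.val h2
    rw [GeneralLinearGroup.val_det_apply, Units.val_one] at h3
    exact ⟨s, hH _ h3⟩
  refine ⟨fT (TT_injective b) θ, isGen_fT _ _, ?_, ?_, ?_, ?_⟩
  · intro g hg
    obtain ⟨x, s, h1, h2⟩ := exists_of_ne _ _ hg
    have h3 : orderOf g = orderOf (TT b s) := by
      rw [← h1]
      have h4 : x⁻¹ * g * x = MulAut.conj x⁻¹ g := by rw [MulAut.conj_apply, inv_inv]
      rw [h4]
      exact (MulEquiv.orderOf_eq (MulAut.conj x⁻¹) g).symm
    rw [h3, orderOf_injective _ (TT_injective b), ← order_theta hp θ hθ h2]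
    exact orderOf_map_dvd θ s
  · intro H hH
    have hN := normal_of_hasSL hH
    obtain ⟨s0, h0, h1⟩ := hexA H hH
    have h2 := sum_mul (TT_injective b) θ (F := fun _ => 1) (fun _ _ => rfl) H (hcov H hH) (c := -1) (by
      have h3 := sum_char (H.comap (TT b)) θ ⟨s0, h0, h1⟩
      simp only [Subgroup.mem_comap] at h3
      simp only [mul_one]
      rw [Finset.sum_sub_distrib, h3, Finset.sum_const, nsmul_eq_mul, mul_one]
      ring)
    simp only [mul_one] at h2
    rw [h2]
    ring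
  · intro H hH
    have hN := normal_of_hasSL hH
    obtain ⟨s0, h0, h1⟩ := hexA H hH
    have hF : IsClassFunction (GL (Fin 5) K) (fun g => conj (fT (TT_injective b) θ g)) := by
      intro g h
      show conj _ = conj _
      rw [hcl]
    have h2 := sum_mul (TT_injective b) θ hF H (hcov H hH) (c := ((5 + 1 : ℕ) : ℂ)) (by
      have h3 := sum_double (K := K) hp ho θ hθ (H.comap (TT b)) h0 h1 θ⁻¹ (N := 1) (by
        rw [MonoidHom.inv_apply]
        intro h
        exact h1 (inv_eq_one.1 h)) (by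
        rw [Finset.card_eq_one]
        refine ⟨0, ?_⟩
        ext i
        rw [Finset.mem_filter, Finset.mem_singleton]
        constructor
        · rintro ⟨-, h⟩
          rw [MonoidHom.inv_apply, inv_pow, mul_inv_eq_one] at h
          apply pow_inj hp ho (order_theta hp θ hθ h1)
          rw [← h]
          simp
        · rintro rfl
          refine ⟨Finset.mem_univ _, ?_⟩
          simp) (by
        intro i h s
        rw [MonoidHom.inv_apply, inv_pow, mul_inv_eq_one] at h
        have h4 : i = 0 := by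
          apply pow_inj hp ho (order_theta hp θ hθ h1)
          rw [← h]
          simp
        subst h4
        simp) (by
        intro s
        rw [MonoidHom.inv_apply, inv_pow, hθ, inv_one])
      simp only [Subgroup.mem_comap] at h3
      rw [← h3]
      refine Finset.sum_congr rfl fun s _ => ?_
      by_cases hs : θ s = 1
      · rw [hs, Units.val_one, sub_self, zero_mul, zero_mul]
      · congr 1
        rw [value b hp ho θ hθ hs, map_sum]
        refine Finset.sum_congr rfl fun i _ => ?_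
        rw [map_sub, map_one, conj_unit hp0 (by rw [← pow_mul, mul_comm, pow_mul, hθ, one_pow]), MonoidHom.inv_apply,
          inv_pow])
    rw [h2]
    norm_num
  · intro H hH
    have hN := normal_of_hasSL hH
    obtain ⟨s0, h0, h1⟩ := hexA H hH
    have hF : IsClassFunction (GL (Fin 5) K) (fun g => conj (fT (TT_injective b) θ (tau g))) := by
      intro g h
      show conj _ = conj _
      rw [tau_mul, tau_mul, tau_inv, hcl]
    have h2 := sum_mul (TT_injective b) θ hF H (hcov H hH) (c := ((5 + 0 : ℕ) : ℂ)) (by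
      have h3 := sum_double (K := K) hp ho θ hθ (H.comap (TT b)) h0 h1 θ (N := 0) h1 (by
        rw [Finset.card_eq_zero, Finset.filter_eq_empty_iff]
        intro i _
        exact mul_ne_one hp ho (order_theta hp θ hθ h1) i) (by
        intro i h
        exact absurd h (mul_ne_one hp ho (order_theta hp θ hθ h1) i)) hθ
      simp only [Subgroup.mem_comap] at h3
      rw [← h3]
      refine Finset.sum_congr rfl fun s _ => ?_
      by_cases hs : θ s = 1
      · rw [hs, Units.val_one, sub_self, zero_mul, zero_mul]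
      · congr 1
        obtain ⟨y, hy⟩ := exists_tau_conj b s
        have hs' : θ s⁻¹ ≠ 1 := by
          rw [map_inv]
          intro h
          exact hs (inv_eq_one.1 h)
        rw [hy, hcl, value b hp ho θ hθ hs', map_sum]
        refine Finset.sum_congr rfl fun i _ => ?_
        rw [map_sub, map_one, conj_unit hp0 (by rw [← pow_mul, mul_comm, pow_mul, hθ, one_pow]), map_inv, inv_pow,
          inv_inv])
    rw [h2]
    norm_num

end Cfsg.Agent.H594.PQ
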