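import Cfsg.Agent.OddOrderCharacters.IndRes
import Cfsg.Agent.Characters.Linear

/-!
# S4612: characters induced from an abelian subgroup given as the image of a homomorphism (helper594)

`M : Λ →* G` injective, `θ : Λ →* ℂˣ`, `fT = Ind (θ - 1)`.

* `sum_mul` : the sum of `fT * F` over a normal subgroup `H`, `F` a class function;
* `fT_M` : the value at `M t` when `M t` is regular.
-/

set_option autoImplicit false

namespace Cfsg.Agent.H594.PQ

open Cfsg Subgroup Cfsg.Agent.OddOrderCharacters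
open scoped ComplexConjugate

universe u v

variable {G : Type u} [Group G] [Fintype G] {Λ : Type v} [CommGroup Λ] [Fintype Λ] {M : Λ →* G}

/-- the induced class function -/
noncomputable def fT (hM : Function.Injective M) (θ : Λ →* ℂˣ) : G → ℂ :=
  indFun M.range fun t => ((θ ((MonoidHom.ofInjective hM).symm t) : ℂˣ) : ℂ) - 1

theorem isGen_fT (hM : Function.Injective M) (θ : Λ →* ℂˣ) : IsGeneralizedCharacter G (fT hM θ) := by
  apply IndRes.isGeneralizedCharacter_indFun
  refine ⟨fun t => ((θ ((MonoidHom.ofInjective hM).symm t) : ℂˣ) : ℂ), fun _ => 1, ?_, ?_, rfl⟩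
  · exact Characters.Linear.isCharacter_hom (θ.comp (MonoidHom.ofInjective hM).symm.toMonoidHom)
  · have h := Characters.Linear.isCharacter_hom (1 : M.range →* ℂˣ)
    simpa using h

open Classical in
theorem fT_apply (hM : Function.Injective M) (θ : Λ →* ℂˣ) (g : G) :
    fT hM θ g = (Nat.card Λ : ℂ)⁻¹ * ∑ x : G, ∑ s : Λ, if x⁻¹ * g * x = M s then ((θ s : ℂˣ) : ℂ) - 1 else 0 := by
  have hc : Nat.card M.range = Nat.card Λ := (Nat.card_congr (MonoidHom.ofInjective hM).toEquiv).symm
  unfold fT indFun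
  rw [hc]
  congr 1
  refine Finset.sum_congr rfl fun x _ => ?_
  unfold extendByZero
  by_cases h : x⁻¹ * g * x ∈ M.range
  · obtain ⟨s, hs⟩ := h
    have h1 : x⁻¹ * g * x = ((⟨M s, s, rfl⟩ : M.range) : G) := hs.symm
    rw [h1, Subtype.val_injective.extend_apply]
    have h2 : (MonoidHom.ofInjective hM).symm ⟨M s, s, rfl⟩ = s := by
      rw [MulEquiv.symm_apply_eq]
      rfl
    rw [h2, Finset.sum_eq_single s]
    · rw [if_pos rfl]
    · intro b _ hb
      rw [if_neg]
      intro h3
      exact hb (hM h3).symm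
    · intro h3
      exact absurd (Finset.mem_univ s) h3
  · rw [Function.extend_apply' _ _ _ (by
      rintro ⟨a, ha⟩
      exact h (ha ▸ a.2))]
    rw [Finset.sum_eq_zero]
    · rfl
    · intro s _
      rw [if_neg]
      intro h3
      exact h ⟨s, h3.symm⟩

theorem isClass_fT (hM : Function.Injective M) (θ : Λ →* ℂˣ) : IsClassFunction G (fT hM θ) :=
  IndRes.isClassFunction_indFun _ _

open Classical in
/-- the support -/
theorem exists_of_ne (hM : Function.Injective M) (θ : Λ →* ℂˣ) {g : G} (hg : fT hM θ g ≠ 0) :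
    ∃ (x : G) (s : Λ), x⁻¹ * g * x = M s ∧ θ s ≠ 1 := by
  by_contra hcon
  push Not at hcon
  apply hg
  rw [fT_apply, Finset.sum_eq_zero, mul_zero]
  intro x _
  apply Finset.sum_eq_zero
  intro s _
  split_ifs with h
  · rw [hcon x s h, Units.val_one, sub_self]
  · rfl

open Classical in
theorem sum_mul_aux (hM : Function.Injective M) (θ : Λ →* ℂˣ) {F : G → ℂ} (hF : IsClassFunction G F) :
    ∑ g : G, fT hM θ g * F g = (Nat.card Λ : ℂ)⁻¹ * (Nat.card G : ℂ) *
      ∑ s : Λ, (((θ s : ℂˣ) : ℂ) - 1) * F (M s) := by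
  have h1 : ∀ x : G, ∑ g : G, (∑ s : Λ, if x⁻¹ * g * x = M s then ((θ s : ℂˣ) : ℂ) - 1 else 0) * F g =
      ∑ s : Λ, (((θ s : ℂˣ) : ℂ) - 1) * F (M s) := by
    intro x
    simp only [Finset.sum_mul]
    rw [Finset.sum_comm]
    refine Finset.sum_congr rfl fun s _ => ?_
    rw [Finset.sum_eq_single (x * M s * x⁻¹)]
    · rw [if_pos (by group), hF]
    · intro b _ hb
      rw [if_neg, zero_mul]
      intro h2
      apply hb
      rw [← h2]
      group
    · intro h3
      exact absurd (Finset.mem_univ _) h3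
  calc ∑ g : G, fT hM θ g * F g = (Nat.card Λ : ℂ)⁻¹ *
      ∑ x : G, ∑ g : G, (∑ s : Λ, if x⁻¹ * g * x = M s then ((θ s : ℂˣ) : ℂ) - 1 else 0) * F g := by
        rw [Finset.sum_comm, Finset.mul_sum]
        refine Finset.sum_congr rfl fun g _ => ?_
        rw [fT_apply, mul_assoc, Finset.sum_mul]
    _ = _ := by
        simp only [h1]
        rw [Finset.sum_const, Finset.card_univ, nsmul_eq_mul, Nat.card_eq_fintype_card (α := G), mul_assoc]

open Classical in
/-- **The sum over a normal subgroup.** -/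
theorem sum_mul (hM : Function.Injective M) (θ : Λ →* ℂˣ) {F : G → ℂ} (hF : IsClassFunction G F) (H : Subgroup G)
    [hH : H.Normal] (hcov : ∀ g : G, ∃ s : Λ, (M s)⁻¹ * g ∈ H) {c : ℂ}
    (hc : ∑ s ∈ Finset.univ.filter (fun s => M s ∈ H), (((θ s : ℂˣ) : ℂ) - 1) * F (M s) =
      c * (Finset.univ.filter (fun s => M s ∈ H)).card) :
    ∑ᶠ h : H, fT hM θ h * F h = c * Nat.card H := by
  have h1 : ∑ᶠ h : H, fT hM θ h * F h = ∑ g : G, fT hM θ g * (if g ∈ H then F g else 0) := by
    rw [finsum_eq_sum_of_fintype]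
    have h2 : ∀ g : G, fT hM θ g * (if g ∈ H then F g else 0) = if g ∈ H then fT hM θ g * F g else 0 := by
      intro g
      split_ifs <;> simp
    simp only [h2]
    rw [← Finset.sum_filter]
    exact (Finset.sum_subtype _ (by simp) (fun g => fT hM θ g * F g)).symm
  have hF' : IsClassFunction G (fun g => if g ∈ H then F g else 0) := by
    intro g h
    have h2 : h * g * h⁻¹ ∈ H ↔ g ∈ H := (hH.mem_comm_iff.trans (by rw [← mul_assoc, inv_mul_cancel, one_mul]))
    simp only [h2, hF g h]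
  rw [h1, sum_mul_aux hM θ hF']
  have h3 : ∑ s : Λ, (((θ s : ℂˣ) : ℂ) - 1) * (if M s ∈ H then F (M s) else 0) =
      ∑ s ∈ Finset.univ.filter (fun s => M s ∈ H), (((θ s : ℂˣ) : ℂ) - 1) * F (M s) := by
    rw [Finset.sum_filter]
    refine Finset.sum_congr rfl fun s _ => ?_
    split_ifs <;> simp
  rw [h3, hc]
  -- the index
  have h4 : Nat.card (H.comap M) = (Finset.univ.filter (fun s => M s ∈ H)).card := by
    rw [Nat.card_eq_fintype_card]
    exact Fintype.card_subtype _
  have hsurj : Function.Surjective ((QuotientGroup.mk' H).comp M) := by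
    intro a
    obtain ⟨g, rfl⟩ := QuotientGroup.mk_surjective a
    obtain ⟨s, hs⟩ := hcov g
    exact ⟨s, QuotientGroup.eq.2 hs⟩
  have hker : ((QuotientGroup.mk' H).comp M).ker = H.comap M := by
    ext s
    rw [MonoidHom.mem_ker, MonoidHom.comp_apply, mem_comap]
    exact QuotientGroup.eq_one_iff _
  have h5 : (H.comap M).index = H.index := by
    rw [← hker, index_ker, MonoidHom.range_eq_top.2 hsurj, card_top]
    rfl
  have h6 := (H.comap M).card_mul_index
  have h7 := H.card_mul_index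
  rw [h5] at h6
  rw [← h4, ← h6, ← h7]
  have h8 : (Nat.card (H.comap M) : ℂ) ≠ 0 := by exact_mod_cast Nat.card_pos.ne'
  have h9 : (H.index : ℂ) ≠ 0 := by exact_mod_cast H.index_ne_zero_of_finite
  push_cast
  field_simp

open Classical in
/-- **The value at a regular element.** -/
theorem fT_M (hM : Function.Injective M) (θ : Λ →* ℂˣ) {t : Λ} {n : ℕ} (σ : Fin n → Λ) (hσ : Function.Injective σ)
    (h1 : ∀ i, ∃ x : G, x * M (σ i) * x⁻¹ = M t) (h2 : ∀ (s : Λ) (x : G), x * M s * x⁻¹ = M t → ∃ i, σ i = s)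
    (hC : ∀ x : G, x * M t = M t * x → x ∈ M.range) : fT hM θ (M t) = ∑ i, (((θ (σ i) : ℂˣ) : ℂ) - 1) := by
  rw [fT_apply, Finset.sum_comm]
  have hcount : ∀ s : Λ, (∑ x : G, if x⁻¹ * M t * x = M s then ((θ s : ℂˣ) : ℂ) - 1 else 0) =
      ∑ i, if σ i = s then (Nat.card Λ : ℂ) * (((θ (σ i) : ℂˣ) : ℂ) - 1) else 0 := by
    intro s
    by_cases hs : ∃ i, σ i = s
    · obtain ⟨i, rfl⟩ := hs
      rw [Finset.sum_eq_single i (fun j _ hj => by rw [if_neg]; intro h; exact hj (hσ h))
        (fun h => absurd (Finset.mem_univ i) h), if_pos rfl, ← Finset.sum_filter, Finset.sum_const, nsmul_eq_mul]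
      congr 2
      obtain ⟨x0, hx0⟩ := h1 i
      have h3 : (Finset.univ.filter fun x : G => x⁻¹ * M t * x = M (σ i)) =
          Finset.univ.image fun s : Λ => M s * x0 := by
        ext x
        simp only [Finset.mem_filter, Finset.mem_univ, true_and, Finset.mem_image]
        constructor
        · intro hx
          have h4 : x * x0⁻¹ * M t = M t * (x * x0⁻¹) := by
            have h5 : x0⁻¹ * M t * x0 = M (σ i) := by rw [← hx0]; group
            calc x * x0⁻¹ * M t = x * (x0⁻¹ * M t * x0) * x0⁻¹ := by group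
              _ = x * (x⁻¹ * M t * x) * x0⁻¹ := by rw [h5, hx]
              _ = _ := by group
          obtain ⟨s, hs⟩ := hC _ h4
          exact ⟨s, by rw [hs]; group⟩
        · rintro ⟨s, rfl⟩
          have h5 : (M s)⁻¹ * M t * M s = M t := by
            rw [← map_inv, ← map_mul, ← map_mul, mul_comm s⁻¹ t, inv_mul_cancel_right]
          calc (M s * x0)⁻¹ * M t * (M s * x0) = x0⁻¹ * ((M s)⁻¹ * M t * M s) * x0 := by group
            _ = x0⁻¹ * M t * x0 := by rw [h5]
            _ = M (σ i) := by rw [← hx0]; group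
      rw [h3, Finset.card_image_of_injective, Finset.card_univ, Nat.card_eq_fintype_card]
      intro a b hab
      exact hM (mul_right_cancel hab)
    · rw [Finset.sum_eq_zero, Finset.sum_eq_zero]
      · intro i _
        rw [if_neg]
        intro h
        exact hs ⟨i, h⟩
      · intro x _
        rw [if_neg]
        intro h
        exact hs (h2 s x (by rw [← h]; group))
  simp only [hcount]
  rw [Finset.sum_comm]
  simp only [Finset.sum_ite_eq, Finset.mem_univ, if_true]
  rw [← Finset.mul_sum, ← mul_assoc, inv_mul_cancel₀, one_mul]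
  exact_mod_cast Nat.card_pos.ne'

/-! ### sums of characters of an abelian group -/

open Classical in
theorem sum_char (A : Subgroup Λ) (μ : Λ →* ℂˣ) (h : ∃ s ∈ A, μ s ≠ 1) :
    ∑ s ∈ Finset.univ.filter (fun s => s ∈ A), ((μ s : ℂˣ) : ℂ) = 0 := by
  obtain ⟨a, ha, ha1⟩ := h
  have h1 : ∑ s ∈ Finset.univ.filter (fun s => s ∈ A), ((μ s : ℂˣ) : ℂ) =
      ((μ a : ℂˣ) : ℂ) * ∑ s ∈ Finset.univ.filter (fun s => s ∈ A), ((μ s : ℂˣ) : ℂ) := by
    rw [Finset.mul_sum]
    refine Finset.sum_bij' (fun s _ => a⁻¹ * s) (fun s _ => a * s) ?_ ?_ ?_ ?_ ?_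
    · intro s hs
      rw [Finset.mem_filter] at hs ⊢
      exact ⟨Finset.mem_univ _, mul_mem (inv_mem ha) hs.2⟩
    · intro s hs
      rw [Finset.mem_filter] at hs ⊢
      exact ⟨Finset.mem_univ _, mul_mem ha hs.2⟩
    · intro s _
      group
    · intro s _
      group
    · intro s _
      rw [← Units.val_mul, ← map_mul, mul_inv_cancel_left]
  have h2 : (((μ a : ℂˣ) : ℂ) - 1) * ∑ s ∈ Finset.univ.filter (fun s => s ∈ A), ((μ s : ℂˣ) : ℂ) = 0 := by
    rw [sub_mul, one_mul, ← h1, sub_self]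
  rcases mul_eq_zero.1 h2 with h3 | h3
  · exfalso
    apply ha1
    apply Units.ext
    rw [Units.val_one]
    exact sub_eq_zero.1 h3
  · exact h3

end Cfsg.Agent.H594.PQ
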